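import Cfsg.Agent.LieClassical.OrthFinite

/-!
# HUB BR: singular vectors of an orthogonal space of dimension at least seven over a finite field (helper435, task 5791)

* `exists_sing_out` : a singular vector orthogonal to `u`, `v`, not in `⟨u,v⟩`;
* `span_sing`, `span_sing1`, `span_sing2` : the singular vectors of `V`, `u^⊥`, `⟨u,v⟩^⊥` span (`⟨u,v⟩` totally singular).
-/

set_option autoImplicit false
set_option linter.unusedSectionVars false

namespace Cfsg.Agent.H435.BR.GeoF

open QuadraticMap Cfsg.Agent.LieClassical Cfsg.Agent.LieClassical.OrthCore Cfsg.Agent.LieClassical.OrthFinite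

variable {F V : Type*} [Field F] [AddCommGroup V] [Module F V] {Q : QuadraticForm F V}

/-- `{w | polar u w = 0, polar v w = 0}` -/
def perp2 (Q : QuadraticForm F V) (u v : V) : Submodule F V :=
  LinearMap.ker (polarBilin Q u) ⊓ LinearMap.ker (polarBilin Q v)

theorem mem_perp2 {u v w : V} : w ∈ perp2 Q u v ↔ polar Q u w = 0 ∧ polar Q v w = 0 := by
  rw [perp2, Submodule.mem_inf, LinearMap.mem_ker, LinearMap.mem_ker]
  rfl

/-- the double orthogonal of `⟨u,v⟩` -/
theorem exists_sep2 [FiniteDimensional F V] (hQ : Nondeg Q) {u v x : V} (hx : x ∉ Submodule.span F {u, v}) :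
    ∃ w ∈ perp2 Q u v, polar Q x w ≠ 0 := by
  by_contra hcon
  push Not at hcon
  have hnd : LinearMap.BilinForm.Nondegenerate (polarBilin Q) := by
    constructor
    · intro a ha
      exact hQ a ha
    · intro a ha
      exact hQ a fun y => by rw [polar_comm]; exact ha y
  have hrefl : (polarBilin Q).IsRefl := fun a b hab => by
    rw [polarBilin_apply_apply] at hab ⊢
    rw [polar_comm]
    exact hab
  have h1 := LinearMap.BilinForm.orthogonal_orthogonal hnd hrefl (Submodule.span F {u, v})
  apply hx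
  rw [← h1, LinearMap.BilinForm.mem_orthogonal_iff]
  intro w hw
  rw [LinearMap.BilinForm.mem_orthogonal_iff] at hw
  have h2 : w ∈ perp2 Q u v := mem_perp2.2 ⟨hw u (Submodule.subset_span (by simp)), hw v (Submodule.subset_span (by simp))⟩
  have h3 := hcon w h2
  change polar Q w x = 0
  rw [polar_comm]
  exact h3

theorem finrank_perp2 [FiniteDimensional F V] (u v : V) : Module.finrank F V ≤ Module.finrank F (perp2 Q u v) + 2 := by
  let f : V →ₗ[F] (Fin 2 → F) := LinearMap.pi ![polarBilin Q u, polarBilin Q v]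
  have h1 := LinearMap.finrank_range_add_finrank_ker f
  have h2 : Module.finrank F (LinearMap.range f) ≤ 2 := by
    refine le_trans (Submodule.finrank_le _) ?_
    rw [Module.finrank_fin_fun]
  have h3 : LinearMap.ker f = perp2 Q u v := by
    ext w
    rw [mem_perp2, LinearMap.mem_ker]
    constructor
    · intro h
      exact ⟨congrFun h 0, congrFun h 1⟩
    · rintro ⟨h, h'⟩
      funext i
      fin_cases i
      · exact h
      · exact h'
  rw [h3] at h1
  omega

/-- **a singular vector orthogonal to `u`, `v`, not in `⟨u,v⟩`** -/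
theorem exists_sing_out [Finite F] [FiniteDimensional F V] (hd : 7 ≤ Module.finrank F V) (u v : V) :
    ∃ w : V, w ≠ 0 ∧ Q w = 0 ∧ polar Q u w = 0 ∧ polar Q v w = 0 ∧ w ∉ Submodule.span F {u, v} := by
  classical
  set U := Submodule.span F ({u, v} : Set V) with hU
  have hU2 : Module.finrank F U ≤ 2 := by
    have h1 := finrank_span_le_card (R := F) ({u, v} : Set V)
    refine h1.trans ?_
    rw [Set.toFinset_insert, Set.toFinset_singleton]
    exact Finset.card_le_two
  -- a complement of `U ⊓ perp` in `perp`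
  obtain ⟨W, hW⟩ := Submodule.exists_isCompl (U.comap (perp2 Q u v).subtype)
  have h1 := Submodule.finrank_add_eq_of_isCompl hW
  have h2 : Module.finrank F (U.comap (perp2 Q u v).subtype) ≤ 2 := by
    refine le_trans ?_ hU2
    have h3 : (U.comap (perp2 Q u v).subtype).map (perp2 Q u v).subtype ≤ U := Submodule.map_comap_le _ _
    have h4 := Submodule.finrank_mono h3
    rwa [← (Submodule.equivMapOfInjective _ (perp2 Q u v).injective_subtype _).finrank_eq] at h4
  have h3 := finrank_perp2 (Q := Q) u v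
  obtain ⟨w, hw, hw0, hQw⟩ := exists_sing_mem (Q := Q) (W.map (perp2 Q u v).subtype) (by
    rw [← (Submodule.equivMapOfInjective _ (perp2 Q u v).injective_subtype _).finrank_eq]
    omega)
  obtain ⟨⟨w', hw'⟩, hwW, rfl⟩ := hw
  have h5 := mem_perp2.1 hw'
  refine ⟨w', hw0, hQw, h5.1, h5.2, fun hin => hw0 ?_⟩
  have h6 : (⟨w', hw'⟩ : perp2 Q u v) ∈ U.comap (perp2 Q u v).subtype ⊓ W := ⟨hin, hwW⟩
  rw [hW.inf_eq_bot, Submodule.mem_bot] at h6
  exact congrArg Subtype.val h6

/-- the singular vectors of `W` span `W` -/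
theorem span_of {W : Submodule F V} {e w₀ : V} (he : e ∈ W) (he0 : e ≠ 0) (hQe : Q e = 0) (hw₀ : w₀ ∈ W)
    (hew : polar Q e w₀ ≠ 0) {w : V} (hw : w ∈ W) : w ∈ Submodule.span F {x | x ∈ W ∧ x ≠ 0 ∧ Q x = 0} := by
  set T := Submodule.span F {x | x ∈ W ∧ x ≠ 0 ∧ Q x = 0} with hT
  have heT : e ∈ T := Submodule.subset_span ⟨he, he0, hQe⟩
  have key : ∀ w ∈ W, polar Q e w ≠ 0 → w ∈ T := by
    intro w hw hew
    set c := (polar Q e w)⁻¹ * Q w with hc
    have h1 : Q (w - c • e) = 0 := by
      have e1 : w - c • e = w + (-c) • e := by rw [neg_smul, sub_eq_add_neg]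
      rw [e1, Q_add, QuadraticMap.map_smul, polar_smul_right, hQe, polar_comm Q w e, smul_eq_mul, smul_eq_mul, hc]
      have : (polar Q e w)⁻¹ * Q w * polar Q e w = Q w := by
        rw [mul_right_comm, inv_mul_cancel₀ hew, one_mul]
      linear_combination (-1 : F) * this
    have h2 : w - c • e ∈ T := by
      by_cases h0 : w - c • e = 0
      · rw [h0]; exact zero_mem _
      · exact Submodule.subset_span ⟨W.sub_mem hw (W.smul_mem c he), h0, h1⟩
    rw [← sub_add_cancel w (c • e)]
    exact T.add_mem h2 (T.smul_mem c heT)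
  by_cases h : polar Q e w = 0
  · have h1 := key (w + w₀) (W.add_mem hw hw₀) (by rw [polar_add_right, h, zero_add]; exact hew)
    have h2 := T.sub_mem h1 (key w₀ hw₀ hew)
    rwa [add_sub_cancel_right] at h2
  · exact key w hw h

variable [Finite F] [FiniteDimensional F V]

/-- the singular vectors in `⟨u,v⟩^⊥` span `⟨u,v⟩^⊥`, also in the case `v = u` or `u = v = 0` -/
theorem span_sing2 (hQ : Nondeg Q) (hd : 7 ≤ Module.finrank F V) (u v : V) {w : V} (hu : polar Q u w = 0)
    (hv : polar Q v w = 0) :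
    w ∈ Submodule.span F {x : V | polar Q u x = 0 ∧ polar Q v x = 0 ∧ x ≠ 0 ∧ Q x = 0} := by
  obtain ⟨e, he0, hQe, hue, hve, hout⟩ := exists_sing_out (Q := Q) hd u v
  obtain ⟨w₀, hw₀, hew⟩ := exists_sep2 hQ hout
  have h1 := span_of (W := perp2 Q u v) (mem_perp2.2 ⟨hue, hve⟩) he0 hQe hw₀ hew (mem_perp2.2 ⟨hu, hv⟩)
  refine Submodule.span_mono ?_ h1
  rintro x ⟨hx, hx0, hQx⟩
  exact ⟨(mem_perp2.1 hx).1, (mem_perp2.1 hx).2, hx0, hQx⟩

end Cfsg.Agent.H435.BR.GeoF
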