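import Cfsg.Agent.H435.BR.Pol
import Cfsg.Agent.H435.BR.GeoF

/-!
# HUB BR: the geometry `Pol` of the orthogonal groups in characteristic two (helper435, task 5791)

`jv K v` : the vector `v ∈ F^ι` in `K^ι`; `sing Q K` : the non-zero singular vectors of `F^ι` in `K^ι`;
`pol_of` : `Pol BK (sing Q K)` for the extended polar form `BK`.
-/

set_option autoImplicit false
set_option linter.unusedSectionVars false

namespace Cfsg.Agent.H435.BR

open QuadraticMap Cfsg.Agent.LieClassical Cfsg.Agent.LieClassical.OrthCore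

variable {F : Type*} [Field F] {ι : Type*} (Q : QuadraticForm F (ι → F)) (K : Type*) [Field K] [Algebra F K]

/-- extension of scalars of a vector -/
def jv (v : ι → F) : ι → K := fun i => algebraMap F K (v i)

theorem jv_add (v w : ι → F) : jv K (v + w) = jv K v + jv K w := by
  funext i
  exact map_add (algebraMap F K) _ _

theorem jv_smul (c : F) (v : ι → F) : jv K (c • v) = algebraMap F K c • jv K v := by
  funext i
  exact map_mul (algebraMap F K) _ _

theorem jv_zero : jv K (0 : ι → F) = 0 := by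
  funext i
  exact map_zero (algebraMap F K)

theorem jv_sub (v w : ι → F) : jv K (v - w) = jv K v - jv K w := by
  funext i
  exact map_sub (algebraMap F K) _ _

theorem jv_inj {v w : ι → F} (h : jv K v = jv K w) : v = w := by
  funext i
  exact (algebraMap F K).injective (congrFun h i)

theorem jv_single [DecidableEq ι] (i : ι) : jv K (Pi.single i (1 : F)) = Pi.single i 1 := by
  funext k
  by_cases h : k = i
  · subst h
    simp [jv]
  · simp [jv, h]

/-- the non-zero singular vectors -/
def sing : Set (ι → K) := {x | ∃ v : ι → F, v ≠ 0 ∧ Q v = 0 ∧ x = jv K v}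

variable {Q K}

theorem jv_mem_span {S : Set (ι → F)} {v : ι → F} (hv : v ∈ Submodule.span F S) :
    jv K v ∈ Submodule.span K (jv K '' S) := by
  induction hv using Submodule.span_induction with
  | mem x hx => exact Submodule.subset_span ⟨x, hx, rfl⟩
  | zero => rw [jv_zero]; exact zero_mem _
  | add x y _ _ hx hy => rw [jv_add]; exact add_mem hx hy
  | smul c x _ hx => rw [jv_smul]; exact Submodule.smul_mem _ _ hx

variable [Fintype ι] [DecidableEq ι] {BK : LinearMap.BilinForm K (ι → K)}

theorem sum_single (x : ι → K) : ∑ i, x i • (jv K (Pi.single i (1 : F))) = x := by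
  funext k
  rw [Finset.sum_apply]
  rw [Finset.sum_eq_single k]
  · rw [jv_single]
    simp
  · intro b _ hb
    rw [jv_single, Pi.smul_apply, Pi.single_eq_of_ne hb.symm, smul_zero]
  · intro hk
    exact absurd (Finset.mem_univ k) hk

/-- two linear maps which agree on the `jv K v` are equal -/
theorem ext_jv {M : Type*} [AddCommGroup M] [Module K M] {f g : (ι → K) →ₗ[K] M}
    (h : ∀ v : ι → F, f (jv K v) = g (jv K v)) : f = g := by
  ext x
  simp only [LinearMap.coe_comp, Function.comp_apply, LinearMap.coe_single]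
  rw [← jv_single (F := F) K x]
  exact h _

section

variable (hB : ∀ v w : ι → F, BK (jv K v) (jv K w) = algebraMap F K (polar Q v w))

include hB

theorem bk_symm (v w : ι → K) : BK v w = BK w v := by
  have h1 : BK = BK.flip := by
    refine ext_jv (F := F) fun v => ext_jv (F := F) fun w => ?_
    change BK (jv K v) (jv K w) = BK (jv K w) (jv K v)
    rw [hB, hB, polar_comm]
  calc BK v w = BK.flip v w := by rw [← h1]
    _ = BK w v := rfl

theorem bk_alt (h2 : (2 : F) = 0) (v : ι → K) : BK v v = 0 := by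
  have h2K : (2 : K) = 0 := by
    have := congrArg (algebraMap F K) h2
    rwa [map_ofNat, map_zero] at this
  have hself : ∀ v : ι → F, polar Q v v = 0 := fun v => by rw [polar_self', h2, zero_mul]
  have hadd : ∀ a b : ι → K, BK (a + b) (a + b) = BK a a + BK b b := by
    intro a b
    have h3 : BK (a + b) (a + b) = BK a a + BK b b + 2 * BK a b := by
      simp only [map_add, LinearMap.add_apply]
      rw [bk_symm hB b a]
      ring
    rw [h3, h2K, zero_mul, add_zero]
  have key : ∀ s : Finset ι, ∀ x : ι → K, BK (∑ i ∈ s, x i • (jv K (Pi.single i (1 : F))))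
      (∑ i ∈ s, x i • (jv K (Pi.single i (1 : F)))) = 0 := by
    intro s x
    induction s using Finset.induction_on with
    | empty => simp
    | insert a s ha ih =>
      rw [Finset.sum_insert ha, hadd, ih, map_smul, map_smul, LinearMap.smul_apply, hB, hself,
        map_zero, smul_zero, smul_zero, zero_add]
  have h1 := key Finset.univ v
  rwa [sum_single] at h1

/-- representation of the coordinates -/
theorem exists_coord (hQ : Nondeg Q) (i : ι) : ∃ d : ι → F, ∀ x : ι → K, BK (jv K d) x = x i := by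
  have hnd : LinearMap.BilinForm.Nondegenerate (polarBilin Q) := by
    constructor
    · intro a ha
      exact hQ a ha
    · intro a ha
      exact hQ a fun y => by rw [polar_comm]; exact ha y
  let d := LinearMap.BilinForm.dualBasis (polarBilin Q) hnd (Pi.basisFun F ι) i
  have h1 : ∀ j, polar Q d (Pi.single j 1) = if j = i then 1 else 0 := by
    intro j
    have h2 := LinearMap.BilinForm.apply_dualBasis_left hnd (Pi.basisFun F ι) i j
    rw [Pi.basisFun_apply] at h2
    exact h2
  refine ⟨d, fun x => ?_⟩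
  conv_lhs => rw [← sum_single (F := F) x]
  rw [map_sum, Finset.sum_eq_single i]
  · rw [map_smul, hB, h1, if_pos rfl, map_one, smul_eq_mul, mul_one]
  · intro b _ hb
    rw [map_smul, hB, h1, if_neg hb, map_zero, smul_zero]
  · intro hk
    exact absurd (Finset.mem_univ i) hk

theorem bk_nd (hQ : Nondeg Q) (x : ι → K) (hx : ∀ y, BK y x = 0) : x = 0 := by
  funext i
  obtain ⟨d, hd⟩ := exists_coord hB hQ i
  rw [← hd x, hx]
  rfl

/-- a vector over `K` orthogonal to `u`, `v` is a combination of vectors over `F` orthogonal to `u`, `v` -/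
theorem mem_span_perp2 {u v : ι → F} {y z : ι → F} (hy1 : polar Q u y = 1) (hy2 : polar Q v y = 0)
    (hz1 : polar Q u z = 0) (hz2 : polar Q v z = 1) {x : ι → K} (hu : BK (jv K u) x = 0) (hv : BK (jv K v) x = 0) :
    x ∈ Submodule.span K (jv K '' {w | polar Q u w = 0 ∧ polar Q v w = 0}) := by
  set T := Submodule.span K (jv K '' {w | polar Q u w = 0 ∧ polar Q v w = 0}) with hT
  have h1 : ∑ i, x i • jv K (Pi.single i (1 : F) - polar Q u (Pi.single i 1) • y - polar Q v (Pi.single i 1) • z) = x := by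
    have h2 : ∑ i, x i • jv K (Pi.single i (1 : F) - polar Q u (Pi.single i 1) • y - polar Q v (Pi.single i 1) • z) =
        ∑ i, x i • (jv K (Pi.single i (1 : F))) - (BK (jv K u) x) • jv K y - (BK (jv K v) x) • jv K z := by
      have h3 : ∀ u : ι → F, BK (jv K u) x = ∑ i, x i * algebraMap F K (polar Q u (Pi.single i 1)) := by
        intro u
        conv_lhs => rw [← sum_single (F := F) x]
        rw [map_sum]
        refine Finset.sum_congr rfl fun i _ => ?_
        rw [map_smul, hB, smul_eq_mul]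
      rw [h3 u, h3 v, Finset.sum_smul, Finset.sum_smul, ← Finset.sum_sub_distrib, ← Finset.sum_sub_distrib]
      refine Finset.sum_congr rfl fun i _ => ?_
      rw [jv_sub, jv_sub, jv_smul, jv_smul, smul_sub, smul_sub, smul_smul, smul_smul]
    rw [h2, hu, hv, zero_smul, zero_smul, sub_zero, sub_zero, sum_single]
  rw [← h1]
  refine Submodule.sum_mem _ fun i _ => Submodule.smul_mem _ _ (Submodule.subset_span ⟨_, ⟨?_, ?_⟩, rfl⟩)
  · rw [polar_sub_right, polar_sub_right, polar_smul_right, polar_smul_right, hy1, hz1, smul_eq_mul, smul_eq_mul, mul_one,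
      mul_zero, sub_self, sub_zero]
  · rw [polar_sub_right, polar_sub_right, polar_smul_right, polar_smul_right, hy2, hz2, smul_eq_mul, smul_eq_mul, mul_one,
      mul_zero, sub_zero, sub_self]

/-- the same for one vector -/
theorem mem_span_perp1 {u y : ι → F} (hy : polar Q u y = 1) {x : ι → K} (hu : BK (jv K u) x = 0) :
    x ∈ Submodule.span K (jv K '' {w | polar Q u w = 0}) := by
  have h1 : ∑ i, x i • jv K (Pi.single i (1 : F) - polar Q u (Pi.single i 1) • y) = x := by
    have h2 : ∑ i, x i • jv K (Pi.single i (1 : F) - polar Q u (Pi.single i 1) • y) =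
        ∑ i, x i • (jv K (Pi.single i (1 : F))) - (BK (jv K u) x) • jv K y := by
      have h3 : BK (jv K u) x = ∑ i, x i * algebraMap F K (polar Q u (Pi.single i 1)) := by
        conv_lhs => rw [← sum_single (F := F) x]
        rw [map_sum]
        refine Finset.sum_congr rfl fun i _ => ?_
        rw [map_smul, hB, smul_eq_mul]
      rw [h3, Finset.sum_smul, ← Finset.sum_sub_distrib]
      refine Finset.sum_congr rfl fun i _ => ?_
      rw [jv_sub, jv_smul, smul_sub, smul_smul]
    rw [h2, hu, zero_smul, sub_zero, sum_single]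
  rw [← h1]
  refine Submodule.sum_mem _ fun i _ => Submodule.smul_mem _ _ (Submodule.subset_span ⟨_, ?_, rfl⟩)
  change polar Q u _ = 0
  rw [polar_sub_right, polar_smul_right, hy, smul_eq_mul, mul_one, sub_self]

/-- **The geometry.** -/
theorem pol_of [Finite F] (h2 : (2 : F) = 0) (hQ : Nondeg Q) (hd : 7 ≤ Fintype.card ι) : Pol BK (sing Q K) := by
  have hd' : 7 ≤ Module.finrank F (ι → F) := by rwa [Module.finrank_fintype_fun_eq_card]
  have h2K : (2 : K) = 0 := by
    have := congrArg (algebraMap F K) h2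
    rwa [map_ofNat, map_zero] at this
  have hBz : ∀ v w : ι → F, BK (jv K v) (jv K w) = 0 ↔ polar Q v w = 0 := by
    intro v w
    rw [hB, map_eq_zero]
  -- singular vectors over `F` span, over `K`
  have hspan2 : ∀ u v w : ι → F, polar Q u w = 0 → polar Q v w = 0 →
      jv K w ∈ Submodule.span K {x | x ∈ sing Q K ∧ BK (jv K u) x = 0 ∧ BK (jv K v) x = 0} := by
    intro u v w hu hv
    have h3 := jv_mem_span (K := K) (GeoF.span_sing2 hQ hd' u v hu hv)
    refine Submodule.span_mono ?_ h3
    rintro _ ⟨x, ⟨hux, hvx, hx0, hQx⟩, rfl⟩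
    exact ⟨⟨x, hx0, hQx, rfl⟩, (hBz u x).2 hux, (hBz v x).2 hvx⟩
  -- dual vectors
  have hdual : ∀ u v : ι → F, u ≠ 0 → (∀ c : F, v ≠ c • u) → ∃ z, polar Q u z = 0 ∧ polar Q v z = 1 := by
    intro u v hu hv
    have h3 : v ∉ Submodule.span F ({u, u} : Set (ι → F)) := by
      rw [Set.insert_eq_of_mem (Set.mem_singleton u), Submodule.mem_span_singleton]
      rintro ⟨c, hc⟩
      exact hv c hc.symm
    obtain ⟨z, hz, hvz⟩ := GeoF.exists_sep2 hQ h3
    have h4 := (GeoF.mem_perp2.1 hz).1
    refine ⟨(polar Q v z)⁻¹ • z, ?_, ?_⟩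
    · rw [polar_smul_right, h4, smul_zero]
    · rw [polar_smul_right, smul_eq_mul, inv_mul_cancel₀ hvz]
  -- independence
  have hind : ∀ u v w : ι → F, w ∉ Submodule.span F ({u, v} : Set (ι → F)) → ∀ c d : K, jv K w ≠ c • jv K u + d • jv K v := by
    intro u v w hw c d hcd
    obtain ⟨z, hz, hwz⟩ := GeoF.exists_sep2 hQ hw
    have h4 := GeoF.mem_perp2.1 hz
    apply hwz
    rw [← hBz, hcd, map_add, LinearMap.add_apply, map_smul, map_smul, LinearMap.smul_apply, LinearMap.smul_apply,
      (hBz u z).2 h4.1, (hBz v z).2 h4.2, smul_zero, smul_zero, add_zero]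
  have hts : ∀ u v : ι → F, (∀ c : K, jv K v ≠ c • jv K u) → ∀ c : F, v ≠ c • u := by
    rintro u v h c rfl
    exact h (algebraMap F K c) (jv_smul K c u)
  refine
    { two := h2K
      alt := bk_alt hB h2
      symm := bk_symm hB
      nd := bk_nd hB hQ
      ne := ?_
      nonempty := ?_
      span := ?_
      span1 := ?_
      span2 := ?_
      link := ?_
      link2 := ?_
      add := ?_ }
  · rintro _ ⟨v, hv, -, rfl⟩ h0
    apply hv
    apply jv_inj K
    rw [h0, jv_zero]
  · obtain ⟨w, hw, hQw, -⟩ := GeoF.exists_sing_out (Q := Q) hd' 0 0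
    exact ⟨_, w, hw, hQw, rfl⟩
  · rw [eq_top_iff]
    intro x _
    rw [← sum_single (F := F) x]
    refine Submodule.sum_mem _ fun i _ => Submodule.smul_mem _ _ ?_
    have h3 := hspan2 0 0 (Pi.single i 1) (by simp) (by simp)
    exact Submodule.span_mono (fun y hy => hy.1) h3
  · rintro _ ⟨u, hu, hQu, rfl⟩ x hx
    obtain ⟨y, hy⟩ := hQ.exists_polar_eq hu 1
    have h3 := mem_span_perp1 hB hy hx
    have h4 : jv K '' {w | polar Q u w = 0} ⊆
        (Submodule.span K {w | w ∈ sing Q K ∧ BK (jv K u) w = 0} : Submodule K (ι → K)) := by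
      rintro _ ⟨w, hw, rfl⟩
      have h4 := hspan2 u u w hw hw
      have h5 : ({x | x ∈ sing Q K ∧ BK (jv K u) x = 0 ∧ BK (jv K u) x = 0} : Set (ι → K)) ⊆
          {w | w ∈ sing Q K ∧ BK (jv K u) w = 0} := fun z hz => ⟨hz.1, hz.2.1⟩
      exact Submodule.span_mono h5 h4
    exact Submodule.span_le.2 h4 h3
  · rintro _ _ ⟨⟨u, hu, hQu, rfl⟩, ⟨v, hv, hQv, rfl⟩, huv, hi⟩ x hux hvx
    have hi' := hts u v hi
    obtain ⟨z, hz1, hz2⟩ := hdual u v hu hi'
    obtain ⟨y, hy1, hy2⟩ := hdual v u hv (by
      rintro c rfl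
      by_cases hc : c = 0
      · rw [hc, zero_smul] at hu
        exact hu rfl
      · exact hi' c⁻¹ (by rw [smul_smul, inv_mul_cancel₀ hc, one_smul]))
    have h3 := mem_span_perp2 hB hy2 hy1 hz1 hz2 hux hvx
    have h4 : jv K '' {w | polar Q u w = 0 ∧ polar Q v w = 0} ⊆
        (Submodule.span K {w | w ∈ sing Q K ∧ BK (jv K u) w = 0 ∧ BK (jv K v) w = 0} : Submodule K (ι → K)) := by
      rintro _ ⟨w, ⟨huw, hvw⟩, rfl⟩
      exact hspan2 u v w huw hvw
    exact Submodule.span_le.2 h4 h3
  · rintro _ ⟨u, hu, hQu, rfl⟩ _ ⟨v, hv, hQv, rfl⟩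
    obtain ⟨w, hw, hQw, huw, hvw, hout⟩ := GeoF.exists_sing_out (Q := Q) hd' u v
    refine ⟨_, ⟨w, hw, hQw, rfl⟩, (hBz u w).2 huw, (hBz v w).2 hvw, fun c hc => ?_, fun c hc => ?_⟩
    · exact hind u v w hout c 0 (by rw [hc, zero_smul, add_zero])
    · exact hind u v w hout 0 c (by rw [hc, zero_smul, zero_add])
  · rintro _ _ ⟨⟨u, hu, hQu, rfl⟩, ⟨v, hv, hQv, rfl⟩, huv, hi⟩
    obtain ⟨w, hw, hQw, huw, hvw, hout⟩ := GeoF.exists_sing_out (Q := Q) hd' u v
    exact ⟨_, ⟨w, hw, hQw, rfl⟩, (hBz u w).2 huw, (hBz v w).2 hvw, hind u v w hout⟩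
  · rintro _ _ ⟨⟨u, hu, hQu, rfl⟩, ⟨v, hv, hQv, rfl⟩, huv, hi⟩
    have hi' := hts u v hi
    refine ⟨u + v, fun h0 => ?_, ?_, (jv_add K u v).symm⟩
    · exact hi' (-1) (by rw [neg_one_smul]; exact eq_neg_of_add_eq_zero_right h0)
    · rw [Q_add, hQu, hQv, (hBz u v).1 huv, add_zero, add_zero]

end

end Cfsg.Agent.H435.BR
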