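import Cfsg.Agent.H435.BR.Sub
import Cfsg.Agent.H435.BR.PolOm
import Cfsg.Agent.H621.BR.Bridge

/-!
# HUB BR, `Ω(Q)` in characteristic two: the module facts (helper435, task 5791)

For the objects of `H748/BR/OmDefs` (`Om Q`, `rho Q K`, `BK Q K`, `wdg`, `lam`, `lam0`) and the root groups `omx` of
`H621/BR/Bridge`; `(2 : F) = 0`, `3 ≤ |F|`, `7 ≤ |ι|`, `Good Q`.

* `rt_eq_wdg`, `lam_eq`, `lam0_eq` : comparison with `H435/BR/Pol`;
* `lam0_le_lam`, `scal` (the scalars), `lam0_not_le_scal`, `finrank_lam0_ge`;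
* `lam0_le_of_inv` : an invariant subspace of `lam` which is not scalar contains `lam0`;
* `WE Q K = lam0 / (lam0 ∩ scal)`, `sgE Q K : Om Q →* Module.End K (WE Q K)`, `sgE_mk`;
* `sgE_irr`, `sgE_cen`, `sgE_polyDeg`, `finrank_WE_le`;
* `ome_le_finrank` : an invariant `S` with a non-scalar element of `lam` has dimension at least `n (n - 1) / 2 - 1`.
-/

set_option autoImplicit false
set_option linter.unusedSectionVars false

namespace Cfsg.Agent.H435.BR

open Module QuadraticMap Cfsg Cfsg.Agent.LieClassical.OrthCore Cfsg.Agent.LieClassical.OrthTrans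
open Cfsg.Agent.H883.BR Cfsg.Agent.H748.BR

/-! ### comparison -/

section cmp

variable {K : Type*} [Field K] {V : Type*} [AddCommGroup V] [Module K V] {B : LinearMap.BilinForm K V}

/-- the scalars -/
def scal (K V : Type*) [Field K] [AddCommGroup V] [Module K V] : Submodule K (Module.End K V) :=
  Submodule.span K {1}

theorem mem_scal {X : Module.End K V} : X ∈ scal K V ↔ ∃ c : K, X = c • 1 := by
  rw [scal, Submodule.mem_span_singleton]
  constructor
  · rintro ⟨c, hc⟩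
    exact ⟨c, hc.symm⟩
  · rintro ⟨c, hc⟩
    exact ⟨c, hc.symm⟩

theorem scal_inv {G : Type*} [Group G] {ρ : G →* Module.End K V} : Inv (ad ρ) ⊤ (scal K V) := by
  intro g _ X hX
  obtain ⟨c, rfl⟩ := mem_scal.1 hX
  rw [mem_scal]
  refine ⟨c, ?_⟩
  rw [ad_apply, mul_smul_comm, mul_one, smul_mul_assoc, ← map_mul, mul_inv_cancel, map_one]

theorem rt_eq_wdg (h2 : (2 : K) = 0) (u v : V) : rt B u v = wdg B u v := by
  ext x
  rw [rt_apply, wdg_apply, sub_eq_add_neg]
  congr 1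
  have h1 : (2 : K) • (B u x • v) = 0 := by rw [h2, zero_smul]
  rw [two_smul] at h1
  exact (neg_eq_of_add_eq_zero_left h1).symm

theorem lam_eq (hs : ∀ v w, B v w = B w v) : lam B = Lam B := by
  ext X
  rw [H748.BR.mem_lam, mem_Lam]
  refine and_congr_right fun _ => forall_congr' fun v => ?_
  rw [hs]

theorem lam0_eq {P : Set V} (h : Pol B P) : lam0 B = Lam0 B P := by
  rw [h.Lam0_eq, lam0]
  congr 1
  ext X
  constructor
  · rintro ⟨u, v, huv, rfl⟩
    exact ⟨u, v, huv, (rt_eq_wdg h.two u v).symm⟩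
  · rintro ⟨u, v, huv, rfl⟩
    exact ⟨u, v, huv, (rt_eq_wdg h.two u v).symm⟩

theorem lam0_le_lam {P : Set V} (h : Pol B P) : lam0 B ≤ lam B := by
  rw [lam0_eq h, lam_eq h.symm]
  exact h.Lam0_le_Lam

end cmp

/-! ### the groups -/

variable {F : Type} [Field F] {ι : Type} [Fintype ι] [DecidableEq ι] {Q : QuadraticForm F (ι → F)} (K : Type)
  [Field K] [Algebra F K]

theorem pol_om [Finite F] (hG : Good Q) (h2 : (2 : F) = 0) (hd : 7 ≤ Fintype.card ι) :
    Pol (H748.BR.BK Q K) (sing Q K) :=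
  pol_of (fun v w => H748.BR.BK_vK v w) h2 hG.nondeg hd

instance finite_range [Finite F] : Finite (algebraMap F K).fieldRange :=
  Finite.of_surjective _ (algebraMap F K).rangeRestrictField_bijective.surjective

theorem card_range : Nat.card (algebraMap F K).fieldRange = Nat.card F :=
  (Nat.card_congr (Equiv.ofBijective _ (algebraMap F K).rangeRestrictField_bijective)).symm

/-- invariant subspaces are closed under the root elements -/
theorem rtClosed_of_inv [Finite F] (hG : Good Q) (h2 : (2 : F) = 0) (h3 : 3 ≤ Nat.card F) (hd : 7 ≤ Fintype.card ι)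
    {S : Submodule K (Module.End K (ι → K))} (hS : Inv (ad (H748.BR.rho Q K)) ⊤ S) :
    RtClosed (H748.BR.BK Q K) (sing Q K) S := by
  have hP := pol_om K hG h2 hd
  have key : ∀ a, IsRt (H748.BR.BK Q K) (sing Q K) a → Rt (H748.BR.rho Q K) (algebraMap F K).fieldRange ⊤ a := by
    rintro _ ⟨_, _, ⟨⟨u, hu, hQu, rfl⟩, ⟨v, hv, hQv, rfl⟩, huv, -⟩, rfl⟩
    rw [rt_eq_wdg hP.two]
    have h4 : polar Q u v = 0 := by
      have h5 : algebraMap F K (polar Q u v) = 0 := (H748.BR.BK_vK u v).symm.trans huv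
      rwa [map_eq_zero] at h5
    exact H621.BR.om_rt K hG ⟨(u, v), hQu, hQv, h4⟩
  have h3' : 3 ≤ Nat.card (algebraMap F K).fieldRange := by rwa [card_range]
  exact ⟨fun a ha X hX => (H168.BR.root_mem h3' hS (key a ha) hX).1,
    fun a ha X hX => (H168.BR.root_mem h3' hS (key a ha) hX).2⟩

/-- **invariant subspaces of `lam`** -/
theorem lam0_le_of_inv [Finite F] (hG : Good Q) (h2 : (2 : F) = 0) (h3 : 3 ≤ Nat.card F) (hd : 7 ≤ Fintype.card ι)
    {S : Submodule K (Module.End K (ι → K))} (hS : Inv (ad (H748.BR.rho Q K)) ⊤ S) (hle : S ≤ lam (H748.BR.BK Q K))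
    (hns : ¬ S ≤ scal K (ι → K)) : lam0 (H748.BR.BK Q K) ≤ S := by
  have hP := pol_om K hG h2 hd
  rw [lam0_eq hP]
  rw [lam_eq hP.symm] at hle
  refine hP.Lam0_le_of_not_scalar (rtClosed_of_inv K hG h2 h3 hd hS) hle fun h => hns fun X hX => ?_
  exact mem_scal.2 (h X hX)

theorem finrank_lam0_ge [Finite F] (hG : Good Q) (h2 : (2 : F) = 0) (hd : 7 ≤ Fintype.card ι) :
    Fintype.card ι * (Fintype.card ι - 1) / 2 - 1 ≤ finrank K (lam0 (H748.BR.BK Q K)) := by
  have hP := pol_om K hG h2 hd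
  rw [lam0_eq hP]
  have h4 := hP.finrank_Lam0
  rw [Module.finrank_fintype_fun_eq_card] at h4
  omega

theorem finrank_scal_le : finrank K (scal K (ι → K)) ≤ 1 := by
  have h3 := finrank_span_le_card (R := K) ({1} : Set (Module.End K (ι → K)))
  rw [scal]
  simpa using h3

theorem lam0_not_le_scal [Finite F] (hG : Good Q) (h2 : (2 : F) = 0) (hd : 7 ≤ Fintype.card ι) :
    ¬ lam0 (H748.BR.BK Q K) ≤ scal K (ι → K) := by
  intro h
  have h4 := Submodule.finrank_mono h
  have h5 := finrank_lam0_ge K hG h2 hd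
  have h6 := finrank_scal_le K (ι := ι)
  have h7 : 7 * 6 ≤ Fintype.card ι * (Fintype.card ι - 1) := Nat.mul_le_mul hd (by omega)
  have h8 : 7 * 6 / 2 ≤ Fintype.card ι * (Fintype.card ι - 1) / 2 := Nat.div_le_div_right h7
  omega

/-- **the dimension bound** -/
theorem ome_le_finrank [Finite F] (hG : Good Q) (h2 : (2 : F) = 0) (h3 : 3 ≤ Nat.card F) (hd : 7 ≤ Fintype.card ι)
    {S : Submodule K (Module.End K (ι → K))} (hS : Inv (ad (H748.BR.rho Q K)) ⊤ S) {a : Module.End K (ι → K)}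
    (ha : a ∈ S) (hl : a ∈ lam (H748.BR.BK Q K)) (hns : ∀ c : K, a ≠ c • 1) :
    Fintype.card ι * (Fintype.card ι - 1) / 2 - 1 ≤ finrank K S := by
  have h4 : Inv (ad (H748.BR.rho Q K)) ⊤ (S ⊓ lam (H748.BR.BK Q K)) := fun g hg X hX =>
    ⟨hS g hg X hX.1, H748.BR.lam_inv g hg X hX.2⟩
  have h5 : lam0 (H748.BR.BK Q K) ≤ S ⊓ lam (H748.BR.BK Q K) := by
    refine lam0_le_of_inv K hG h2 h3 hd h4 inf_le_right fun h => ?_
    obtain ⟨c, hc⟩ := mem_scal.1 (h ⟨ha, hl⟩)
    exact hns c hc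
  exact (finrank_lam0_ge K hG h2 hd).trans (Submodule.finrank_mono (h5.trans inf_le_left))

variable (Q) in
/-- **the module** `lam0 / (lam0 ∩ scalars)` -/
abbrev WE : Type := SubQ (lam0 (H748.BR.BK Q K)) (scal K (ι → K))

variable (Q) in
/-- **the representation on `WE Q K`** -/
noncomputable def sgE : Om Q →* Module.End K (WE Q K) :=
  subq (ad (H748.BR.rho Q K)) (lam0 (H748.BR.BK Q K)) (scal K (ι → K)) H748.BR.lam0_inv scal_inv

theorem sgE_mk (g : Om Q) (X : lam0 (H748.BR.BK Q K)) : sgE Q K g (Submodule.Quotient.mk X) =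
    Submodule.Quotient.mk ⟨ad (H748.BR.rho Q K) g X, H748.BR.lam0_inv g trivial X.1 X.2⟩ := rfl

/-- **irreducible for all dense subgroups** -/
theorem sgE_irr [Finite F] (hG : Good Q) (h2 : (2 : F) = 0) (h3 : 3 ≤ Nat.card F) (hd : 7 ≤ Fintype.card ι)
    {M : Subgroup (Om Q)} (hM : Dns (ad (H748.BR.rho Q K)) M) : Irr (V := WE Q K) (sgE Q K) M := by
  refine irr_subq _ _ (lam0_not_le_scal K hG h2 hd) (fun T hT hle => ?_) hM
  by_cases h : T ≤ scal K (ι → K)
  · exact Or.inl h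
  · exact Or.inr (lam0_le_of_inv K hG h2 h3 hd hT (hle.trans (lam0_le_lam (pol_om K hG h2 hd))) h)

theorem sgE_cen {z : Om Q} {c : K} (hz : H748.BR.rho Q K z = c • 1) : sgE Q K z = 1 :=
  subq_eq_one _ _ (ad_eq_one hz)

theorem sgE_polyDeg [Finite F] (hG : Good Q) (h3 : 3 ≤ Nat.card F) :
    PolyDeg (V := WE Q K) (sgE Q K) (algebraMap F K).fieldRange (H621.BR.omx K hG) 2 := by
  have h3' : 3 ≤ Nat.card (algebraMap F K).fieldRange := by rwa [card_range]
  exact polyDeg_ad_subq h3' (H621.BR.om_wdg_sq K hG) (H621.BR.om_rho_x K hG) _ _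

theorem finrank_WE_le : finrank K (WE Q K) ≤ Fintype.card ι ^ 2 := by
  refine (Submodule.finrank_quotient_le _).trans ((Submodule.finrank_le _).trans ?_)
  rw [Module.finrank_linearMap, Module.finrank_fintype_fun_eq_card, pow_two]

theorem fd_WE : FiniteDimensional K (WE Q K) := inferInstance

end Cfsg.Agent.H435.BR
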