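import Mathlib

/-!
# HUB BR, orthogonal groups in characteristic two: the linear algebra of the root elements (helper435, task 5791)

`P` is the set of the non-zero singular vectors of an orthogonal space over the small field, `V` the space over the large field
`K`, `B` the polar form. `rt B u v = u ⊗ B(v,·) + v ⊗ B(u,·)`; the root elements are the `rt B u v` with `u, v ∈ P` orthogonal and
independent (`IsRt`).

* `Pol.scalar` : `a X a = 0` for all root elements `a` implies that `X` is scalar;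
* `Pol.irr` : a non-zero subspace invariant under all root elements is `V`;
* `Pol.all_of_not_scalar` : a root-closed `S ≤ Lam` which is not scalar contains all `rt B u x`, `u ∈ P`, `B u x = 0`;
* `Pol.finrank_Lam0` : `n (n - 1) / 2 ≤ dim Lam0 + 1`.
-/

set_option autoImplicit false
set_option linter.unusedSectionVars false

namespace Cfsg.Agent.H435.BR

variable {K V : Type*} [Field K] [AddCommGroup V] [Module K V]

/-- `u ⊗ B(v,·) + v ⊗ B(u,·)` -/
def rt (B : LinearMap.BilinForm K V) (u v : V) : Module.End K V := (B v).smulRight u + (B u).smulRight v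

theorem rt_apply (B : LinearMap.BilinForm K V) (u v x : V) : rt B u v x = B v x • u + B u x • v := rfl

theorem rt_comm (B : LinearMap.BilinForm K V) (u v : V) : rt B u v = rt B v u := by
  ext x
  rw [rt_apply, rt_apply, add_comm]

theorem rt_add (B : LinearMap.BilinForm K V) (u v w : V) : rt B u (v + w) = rt B u v + rt B u w := by
  ext x
  simp only [rt_apply, map_add, LinearMap.add_apply, smul_add, add_smul]
  abel

theorem rt_smul (B : LinearMap.BilinForm K V) (u : V) (c : K) (v : V) : rt B u (c • v) = c • rt B u v := by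
  ext x
  simp only [rt_apply, map_smul, LinearMap.smul_apply, smul_add, smul_smul, smul_eq_mul]
  rw [mul_comm c (B u x)]

theorem rt_add_left (B : LinearMap.BilinForm K V) (u v w : V) : rt B (u + v) w = rt B u w + rt B v w := by
  rw [rt_comm, rt_add, rt_comm B w u, rt_comm B w v]

theorem rt_smul_left (B : LinearMap.BilinForm K V) (c : K) (u v : V) : rt B (c • u) v = c • rt B u v := by
  rw [rt_comm, rt_smul, rt_comm]

/-- `rt B u` as a linear map -/
def rtL (B : LinearMap.BilinForm K V) (u : V) : V →ₗ[K] Module.End K V where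
  toFun := rt B u
  map_add' := rt_add B u
  map_smul' := rt_smul B u

/-- `u`, `v` orthogonal and independent members of `P` -/
structure TS (B : LinearMap.BilinForm K V) (P : Set V) (u v : V) : Prop where
  left : u ∈ P
  right : v ∈ P
  orth : B u v = 0
  ind : ∀ c : K, v ≠ c • u

/-- the root elements -/
def IsRt (B : LinearMap.BilinForm K V) (P : Set V) (a : Module.End K V) : Prop := ∃ u v : V, TS B P u v ∧ a = rt B u v

/-- alternating self-adjoint maps -/
def Lam (B : LinearMap.BilinForm K V) : Submodule K (Module.End K V) where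
  carrier := {X | (∀ v w, B (X v) w = B v (X w)) ∧ ∀ v, B v (X v) = 0}
  zero_mem' := ⟨fun v w => by simp, fun v => by simp⟩
  add_mem' := fun {X Y} hX hY => ⟨fun v w => by simp [hX.1, hY.1], fun v => by simp [hX.2, hY.2]⟩
  smul_mem' := fun c X hX => ⟨fun v w => by simp [hX.1], fun v => by simp [hX.2]⟩

theorem mem_Lam {B : LinearMap.BilinForm K V} {X : Module.End K V} :
    X ∈ Lam B ↔ (∀ v w, B (X v) w = B v (X w)) ∧ ∀ v, B v (X v) = 0 := Iff.rfl

/-- the span of the root elements -/
def Lam0 (B : LinearMap.BilinForm K V) (P : Set V) : Submodule K (Module.End K V) := Submodule.span K {a | IsRt B P a}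

/-- closed under `X ↦ a X - X a`, `X ↦ a X a`, for the root elements `a` -/
structure RtClosed (B : LinearMap.BilinForm K V) (P : Set V) (S : Submodule K (Module.End K V)) : Prop where
  br : ∀ a, IsRt B P a → ∀ X ∈ S, a * X - X * a ∈ S
  sq : ∀ a, IsRt B P a → ∀ X ∈ S, a * X * a ∈ S

/-- **the geometry** -/
structure Pol (B : LinearMap.BilinForm K V) (P : Set V) : Prop where
  two : (2 : K) = 0
  alt : ∀ v, B v v = 0
  symm : ∀ v w, B v w = B w v
  nd : ∀ x, (∀ y, B y x = 0) → x = 0
  ne : ∀ u ∈ P, u ≠ 0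
  nonempty : P.Nonempty
  span : Submodule.span K P = ⊤
  span1 : ∀ u ∈ P, ∀ x, B u x = 0 → x ∈ Submodule.span K {w | w ∈ P ∧ B u w = 0}
  span2 : ∀ u v, TS B P u v → ∀ x, B u x = 0 → B v x = 0 → x ∈ Submodule.span K {w | w ∈ P ∧ B u w = 0 ∧ B v w = 0}
  link : ∀ u ∈ P, ∀ v ∈ P, ∃ w ∈ P, B u w = 0 ∧ B v w = 0 ∧ (∀ c : K, w ≠ c • u) ∧ ∀ c : K, w ≠ c • v
  link2 : ∀ u v, TS B P u v → ∃ w ∈ P, B u w = 0 ∧ B v w = 0 ∧ ∀ c d : K, w ≠ c • u + d • v
  add : ∀ u v, TS B P u v → u + v ∈ P

namespace Pol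

variable {B : LinearMap.BilinForm K V} {P : Set V} (h : Pol B P)

include h

theorem neg_eq (x : K) : -x = x := by
  have h1 : x + x = 0 := by rw [← two_mul, h.two, zero_mul]
  rw [neg_eq_iff_add_eq_zero, h1]

theorem add_self (x : K) : x + x = 0 := by rw [← two_mul, h.two, zero_mul]

theorem neg_eq_end (X : Module.End K V) : -X = X := by
  have h1 : (2 : K) • X = 0 := by rw [h.two, zero_smul]
  rw [two_smul] at h1
  exact neg_eq_of_add_eq_zero_left h1

theorem rt_self (u : V) : rt B u u = 0 := by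
  ext x
  rw [rt_apply, ← two_smul K, h.two, zero_smul]
  rfl

theorem orth_comm {u v : V} (huv : B u v = 0) : B v u = 0 := by rw [h.symm, huv]

theorem ts_symm {u v : V} (ht : TS B P u v) : TS B P v u := by
  refine ⟨ht.right, ht.left, h.orth_comm ht.orth, fun c hc => ?_⟩
  by_cases hc0 : c = 0
  · rw [hc0, zero_smul] at hc
    exact h.ne u ht.left hc
  · apply ht.ind c⁻¹
    rw [hc, smul_smul, inv_mul_cancel₀ hc0, one_smul]

omit h in
/-- `{z | B z x = 0}` -/
def orthS (B : LinearMap.BilinForm K V) (x : V) : Submodule K V where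
  carrier := {z | B z x = 0}
  zero_mem' := by simp
  add_mem' := fun {a b} ha hb => by
    simp only [Set.mem_ofPred_eq, map_add, LinearMap.add_apply] at ha hb ⊢
    rw [ha, hb, add_zero]
  smul_mem' := fun c a ha => by
    simp only [Set.mem_ofPred_eq, map_smul, LinearMap.smul_apply, smul_eq_mul] at ha ⊢
    rw [ha, mul_zero]

/-- a vector orthogonal to `P` is zero -/
theorem eq_zero_of_orth {x : V} (hx : ∀ w ∈ P, B w x = 0) : x = 0 := by
  have h1 : Submodule.span K P ≤ orthS B x := Submodule.span_le.2 fun w hw => hx w hw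
  rw [h.span] at h1
  exact h.nd x fun y => h1 (Submodule.mem_top (x := y))

/-- a vector orthogonal to `P ∩ u^⊥` is a multiple of `u` -/
theorem mem_of_orth1 {u x : V} (hu : u ∈ P) (hx : ∀ w ∈ P, B u w = 0 → B w x = 0) : ∃ c : K, x = c • u := by
  obtain ⟨y, hy⟩ : ∃ y, B y u ≠ 0 := by
    by_contra hcon
    push Not at hcon
    exact h.ne u hu (h.nd u hcon)
  have hy' : B u y ≠ 0 := by rwa [h.symm]
  have h1 : ∀ z, B u z = 0 → B z x = 0 := fun z hz =>
    (Submodule.span_le.2 (fun w hw => hx w hw.1 hw.2) : _ ≤ orthS B x) (h.span1 u hu z hz)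
  refine ⟨(B u y)⁻¹ * B y x, ?_⟩
  rw [← sub_eq_zero]
  apply h.nd
  intro z
  have h2 := h1 (z - ((B u y)⁻¹ * B u z) • y) (by
    rw [map_sub, map_smul, smul_eq_mul, mul_comm (B u y)⁻¹, mul_assoc, inv_mul_cancel₀ hy', mul_one, sub_self])
  rw [map_sub, LinearMap.sub_apply, map_smul, LinearMap.smul_apply, smul_eq_mul, sub_eq_zero] at h2
  rw [map_sub, map_smul, smul_eq_mul, h2, h.symm z u]
  ring

/-- there is `y ∈ P` orthogonal to `u` and not to `v` -/
theorem exists_not_orth {u v : V} (hu : u ∈ P) (hv : ∀ c : K, v ≠ c • u) : ∃ y ∈ P, B u y = 0 ∧ B y v ≠ 0 := by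
  by_contra hcon
  push Not at hcon
  obtain ⟨c, hc⟩ := h.mem_of_orth1 hu (x := v) (fun w hw hw' => hcon w hw hw')
  exact hv c hc

/-- a vector orthogonal to `P ∩ ⟨u,v⟩^⊥` lies in `⟨u,v⟩` -/
theorem mem_of_orth2 {u v x : V} (ht : TS B P u v) (hx : ∀ w ∈ P, B u w = 0 → B v w = 0 → B w x = 0) :
    ∃ c d : K, x = c • u + d • v := by
  -- dual vectors
  obtain ⟨y, hyP, hy1, hy2⟩ := h.exists_not_orth ht.left ht.ind
  obtain ⟨z, hzP, hz1, hz2⟩ := h.exists_not_orth (h.ts_symm ht).left (h.ts_symm ht).ind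
  -- `B u y = 0`, `B y v ≠ 0`, `B v z = 0`, `B z u ≠ 0`
  have h1 : ∀ w, B u w = 0 → B v w = 0 → B w x = 0 := fun w hw hw' =>
    (Submodule.span_le.2 (fun w hw => hx w hw.1 hw.2.1 hw.2.2) : _ ≤ orthS B x) (h.span2 u v ht w hw hw')
  refine ⟨(B z u)⁻¹ * B z x, (B y v)⁻¹ * B y x, ?_⟩
  rw [← sub_eq_zero]
  apply h.nd
  intro w
  have h2 := h1 (w - ((B y v)⁻¹ * B v w) • y - ((B z u)⁻¹ * B u w) • z) (by
    rw [map_sub, map_sub, map_smul, map_smul, hy1, smul_zero, sub_zero, smul_eq_mul, h.symm u z, mul_comm (B z u)⁻¹,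
      mul_assoc, inv_mul_cancel₀ hz2, mul_one, sub_self]) (by
    rw [map_sub, map_sub, map_smul, map_smul, hz1, smul_zero, sub_zero, smul_eq_mul, h.symm v y, mul_comm (B y v)⁻¹,
      mul_assoc, inv_mul_cancel₀ hy2, mul_one, sub_self])
  rw [map_sub, map_sub, LinearMap.sub_apply, LinearMap.sub_apply, map_smul, map_smul, LinearMap.smul_apply,
    LinearMap.smul_apply, smul_eq_mul, smul_eq_mul, sub_sub, sub_eq_zero] at h2
  rw [map_sub, map_add, map_smul, map_smul, smul_eq_mul, smul_eq_mul, h2, h.symm w u, h.symm w v]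
  ring

/-- **`a X a = 0` for all root elements implies that `X` is scalar** -/
theorem scalar_of_orth {X : Module.End K V} (hX : ∀ u v, TS B P u v → B v (X u) = 0) (hX' : ∀ u ∈ P, B u (X u) = 0) :
    ∃ c : K, X = c • 1 := by
  have h1 : ∀ u ∈ P, ∃ c : K, X u = c • u := by
    intro u hu
    refine h.mem_of_orth1 hu fun w hw huw => ?_
    by_cases hc : ∃ c : K, w = c • u
    · obtain ⟨c, rfl⟩ := hc
      rw [map_smul, LinearMap.smul_apply, hX' u hu, smul_zero]
    · push Not at hc
      exact hX u w ⟨hu, hw, huw, hc⟩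
  have h2 : ∀ u v, TS B P u v → ∀ c d : K, X u = c • u → X v = d • v → c = d := by
    intro u v ht c d hc hd
    obtain ⟨e, he⟩ := h1 (u + v) (h.add u v ht)
    rw [map_add, hc, hd, smul_add] at he
    have h3 : (d - e) • v = (e - c) • u := by
      rw [sub_smul, sub_smul, sub_eq_sub_iff_add_eq_add, add_comm, he]
    have h4 : d - e = 0 := by
      by_contra hne
      apply ht.ind ((d - e)⁻¹ * (e - c))
      rw [mul_smul, ← h3, smul_smul, inv_mul_cancel₀ hne, one_smul]
    rw [h4, zero_smul] at h3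
    have h5 : e - c = 0 := by
      by_contra hne
      rcases smul_eq_zero.1 h3.symm with h6 | h6
      · exact hne h6
      · exact h.ne u ht.left h6
    rw [← sub_eq_zero.1 h5, sub_eq_zero.1 h4]
  obtain ⟨u₀, hu₀⟩ := h.nonempty
  obtain ⟨c, hc⟩ := h1 u₀ hu₀
  have h3 : ∀ v ∈ P, X v = c • v := by
    intro v hv
    obtain ⟨w, hw, huw, hvw, hwu, hwv⟩ := h.link u₀ hu₀ v hv
    obtain ⟨d, hd⟩ := h1 v hv
    obtain ⟨e, he⟩ := h1 w hw
    have h4 := h2 u₀ w ⟨hu₀, hw, huw, hwu⟩ c e hc he
    have h5 := h2 v w ⟨hv, hw, hvw, hwv⟩ d e hd he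
    rw [hd, h5, h4]
  refine ⟨c, ?_⟩
  have h4 : Submodule.span K P ≤ LinearMap.ker (X - c • (1 : Module.End K V)) := by
    refine Submodule.span_le.2 fun v hv => ?_
    rw [SetLike.mem_coe, LinearMap.mem_ker, LinearMap.sub_apply, h3 v hv]
    simp
  rw [h.span] at h4
  rw [← sub_eq_zero]
  ext v
  exact h4 (Submodule.mem_top (x := v))

/-- the product `a X a` -/
theorem rt_mul (u v : V) (X : Module.End K V) (w : V) : (rt B u v * X * rt B u v) w =
    (B v w * B v (X u) + B u w * B v (X v)) • u + (B v w * B u (X u) + B u w * B u (X v)) • v := by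
  rw [Module.End.mul_apply, Module.End.mul_apply, rt_apply B u v w, map_add, map_smul, map_smul, map_add, map_smul,
    map_smul, rt_apply, rt_apply]
  module

/-- **`a X a = 0` for all root elements implies that `X` is scalar** -/
theorem scalar {X : Module.End K V} (hX : ∀ a, IsRt B P a → a * X * a = 0) : ∃ c : K, X = c • 1 := by
  have key : ∀ u v, TS B P u v → B v (X u) = 0 ∧ B u (X u) = 0 := by
    intro u v ht
    have h0 := hX _ ⟨u, v, ht, rfl⟩
    -- a vector `w` with `B u w = 0`, `B v w ≠ 0`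
    obtain ⟨w, hwP, hw1, hw2⟩ := h.exists_not_orth ht.left ht.ind
    have hw2' : B v w ≠ 0 := by rwa [h.symm]
    have h1 := h.rt_mul u v X w
    rw [h0, hw1, zero_mul, zero_mul, add_zero, add_zero, LinearMap.zero_apply] at h1
    have h2 : B v w * B u (X u) = 0 := by
      by_contra hne
      apply ht.ind (-((B v w * B u (X u))⁻¹ * (B v w * B v (X u))))
      have h3 : (B v w * B u (X u)) • v = -((B v w * B v (X u)) • u) := eq_neg_of_add_eq_zero_right h1.symm
      rw [neg_smul, mul_smul, ← smul_neg, ← h3, smul_smul, inv_mul_cancel₀ hne, one_smul]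
    rw [h2, zero_smul, add_zero] at h1
    refine ⟨?_, (mul_eq_zero.1 h2).resolve_left hw2'⟩
    rcases smul_eq_zero.1 h1.symm with h3 | h3
    · exact (mul_eq_zero.1 h3).resolve_left hw2'
    · exact absurd h3 (h.ne u ht.left)
  refine h.scalar_of_orth (fun u v ht => (key u v ht).1) fun u hu => ?_
  obtain ⟨w, hw, huw, -, hwu, -⟩ := h.link u hu u hu
  exact (key u w ⟨hu, hw, huw, hwu⟩).2

/-- **irreducibility** -/
theorem irr {U : Submodule K V} (hU : ∀ a, IsRt B P a → ∀ x ∈ U, a x ∈ U) (hne : U ≠ ⊥) : U = ⊤ := by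
  obtain ⟨x, hx, hx0⟩ := Submodule.exists_mem_ne_zero_of_ne_bot hne
  obtain ⟨u, hu, hux⟩ : ∃ u ∈ P, B u x ≠ 0 := by
    by_contra hcon
    push Not at hcon
    exact hx0 (h.eq_zero_of_orth hcon)
  -- `u ∈ U`
  have huU : u ∈ U := by
    obtain ⟨w, hw, huw, -, hwu, -⟩ := h.link u hu u hu
    have h1 := hU _ ⟨u, w, ⟨hu, hw, huw, hwu⟩, rfl⟩ x hx
    rw [rt_apply] at h1
    obtain ⟨v, hv, huv, hvw⟩ := h.exists_not_orth hu hwu
    have hvu : ∀ c : K, v ≠ c • u := by
      rintro c rfl
      apply hvw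
      rw [map_smul, LinearMap.smul_apply, huw, smul_zero]
    have h2 := hU _ ⟨u, v, ⟨hu, hv, huv, hvu⟩, rfl⟩ _ h1
    rw [rt_apply, map_add, map_smul, map_smul, h.orth_comm huv, map_add, map_smul, map_smul, h.alt, huw, smul_zero,
      smul_zero, add_zero, zero_smul, add_zero, zero_add] at h2
    have h3 : (B u x • (B v) w) ≠ 0 := by
      rw [smul_eq_mul]
      exact mul_ne_zero hux hvw
    have h4 := U.smul_mem (B u x • (B v) w)⁻¹ h2
    rwa [smul_smul, inv_mul_cancel₀ h3, one_smul] at h4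
  -- from `u` to its neighbours
  have hstep : ∀ u w, TS B P u w → u ∈ U → w ∈ U := by
    intro u w ht huU
    have ht' := h.ts_symm ht
    obtain ⟨v, hv, hwv, hvu⟩ := h.exists_not_orth ht'.left ht'.ind
    have hvw : ∀ c : K, v ≠ c • w := by
      rintro c rfl
      apply hvu
      rw [map_smul, LinearMap.smul_apply, h.orth_comm ht.orth, smul_zero]
    have h1 := hU _ ⟨w, v, ⟨ht.right, hv, hwv, hvw⟩, rfl⟩ u huU
    rw [rt_apply, h.orth_comm ht.orth, zero_smul, add_zero] at h1
    have h4 := U.smul_mem (B v u)⁻¹ h1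
    rwa [smul_smul, inv_mul_cancel₀ hvu, one_smul] at h4
  rw [eq_top_iff, ← h.span, Submodule.span_le]
  intro v hv
  obtain ⟨w, hw, huw, hvw, hwu, hwv⟩ := h.link u hu v hv
  exact hstep w v (h.ts_symm ⟨hv, hw, hvw, hwv⟩) (hstep u w ⟨hu, hw, huw, hwu⟩ huU)

/-- `a X a` for `X ∈ Lam` -/
theorem rt_mul_Lam {X : Module.End K V} (hX : X ∈ Lam B) (u v : V) : rt B u v * X * rt B u v = B u (X v) • rt B u v := by
  ext w
  rw [h.rt_mul, hX.2 u, hX.2 v, mul_zero, mul_zero, add_zero, zero_add, LinearMap.smul_apply, rt_apply, smul_add,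
    smul_smul, smul_smul, ← hX.1 u v, h.symm v (X u), mul_comm, mul_comm (B u w)]

/-- root elements are in `Lam` -/
theorem rt_mem_Lam (u v : V) : rt B u v ∈ Lam B := by
  refine ⟨fun x y => ?_, fun x => ?_⟩
  · rw [rt_apply, rt_apply, map_add, map_add, LinearMap.add_apply, map_smul, map_smul, map_smul, map_smul,
      LinearMap.smul_apply, LinearMap.smul_apply, smul_eq_mul, smul_eq_mul, smul_eq_mul, smul_eq_mul, h.symm x u,
      h.symm x v]
    ring
  · rw [rt_apply, map_add, map_smul, map_smul, smul_eq_mul, smul_eq_mul, h.symm x u, h.symm x v, mul_comm (B v x),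
      h.add_self]

/-- the bracket of two root elements -/
theorem bracket {u v w y : V} (hwu : B w u = 0) (hyu : B y u = 0) (hwv : B w v = 0) :
    rt B w y * rt B u v - rt B u v * rt B w y = B y v • rt B u w := by
  ext x
  rw [LinearMap.sub_apply, Module.End.mul_apply, Module.End.mul_apply, rt_apply B u v x, rt_apply B w y x, map_add,
    map_smul, map_smul, rt_apply B w y u, rt_apply B w y v, hwu, hyu, hwv, map_add, map_smul, map_smul,
    rt_apply B u v w, rt_apply B u v y, h.orth_comm hwv, h.orth_comm hwu, h.orth_comm hyu, LinearMap.smul_apply,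
    rt_apply, h.symm v y, ← sub_add_cancel (0 : K) 0]
  have e : ∀ z : V, -z = z := by
    intro z
    have h1 : (2 : K) • z = 0 := by rw [h.two, zero_smul]
    rw [two_smul] at h1
    exact neg_eq_of_add_eq_zero_left h1
  rw [sub_eq_add_neg, e]
  simp only [sub_self, zero_add, zero_smul, smul_zero, add_zero, smul_add, smul_smul]
  rw [mul_comm (B u x), mul_comm (B w x)]
  abel

/-- `rt B u x ∈ Lam0` for `u ∈ P`, `x ⊥ u` -/
theorem rt_mem_Lam0 {u x : V} (hu : u ∈ P) (hx : B u x = 0) : rt B u x ∈ Lam0 B P := by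
  have h1 := h.span1 u hu x hx
  have h2 : Submodule.span K {w | w ∈ P ∧ B u w = 0} ≤ (Lam0 B P).comap (rtL B u) := by
    refine Submodule.span_le.2 fun w hw => ?_
    change rt B u w ∈ Lam0 B P
    by_cases hc : ∃ c : K, w = c • u
    · obtain ⟨c, rfl⟩ := hc
      rw [rt_smul, h.rt_self, smul_zero]
      exact zero_mem _
    · push Not at hc
      exact Submodule.subset_span ⟨u, w, ⟨hu, hw.1, hw.2, hc⟩, rfl⟩
  exact h2 h1

theorem Lam0_le_Lam : Lam0 B P ≤ Lam B := by
  refine Submodule.span_le.2 ?_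
  rintro _ ⟨u, v, -, rfl⟩
  exact h.rt_mem_Lam u v

/-- one root element gives all those with the same first vector -/
theorem all_left {S : Submodule K (Module.End K V)} (hS : RtClosed B P S) {u v : V} (ht : TS B P u v)
    (hm : rt B u v ∈ S) : ∀ x, B u x = 0 → rt B u x ∈ S := by
  -- step 1
  have h1 : ∀ w ∈ P, B u w = 0 → B v w = 0 → rt B u w ∈ S := by
    intro w hw huw hvw
    by_cases hc : ∃ c d : K, w = c • u + d • v
    · obtain ⟨c, d, rfl⟩ := hc
      rw [rt_add, rt_smul, rt_smul, h.rt_self, smul_zero, zero_add]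
      exact S.smul_mem d hm
    · push Not at hc
      have hwu : ∀ c : K, w ≠ c • u := fun c hc' => hc c 0 (by rw [zero_smul, add_zero, hc'])
      have htw : TS B P u w := ⟨ht.left, hw, huw, hwu⟩
      -- `y ∈ P` orthogonal to `u`, `w`, not to `v`
      obtain ⟨y, hy, huy, hwy, hyv⟩ : ∃ y ∈ P, B u y = 0 ∧ B w y = 0 ∧ B y v ≠ 0 := by
        by_contra hcon
        push Not at hcon
        obtain ⟨c, d, hcd⟩ := h.mem_of_orth2 htw (x := v) hcon
        have hd : d ≠ 0 := by
          rintro rfl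
          rw [zero_smul, add_zero] at hcd
          exact ht.ind c hcd
        apply hc (-(d⁻¹ * c)) d⁻¹
        rw [hcd, smul_add, smul_smul, smul_smul, inv_mul_cancel₀ hd, one_smul, neg_smul, neg_add_cancel_left]
      have hyw : ∀ c : K, y ≠ c • w := by
        rintro c rfl
        apply hyv
        rw [map_smul, LinearMap.smul_apply, h.orth_comm hvw, smul_zero]
      have h2 := hS.br _ ⟨w, y, ⟨hw, hy, hwy, hyw⟩, rfl⟩ _ hm
      rw [h.bracket (h.orth_comm huw) (h.orth_comm huy) (h.orth_comm hvw)] at h2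
      have h3 := S.smul_mem (B y v)⁻¹ h2
      rwa [smul_smul, inv_mul_cancel₀ hyv, one_smul] at h3
  -- step 2
  have h2 : ∀ v, TS B P u v → (∀ w ∈ P, B u w = 0 → B v w = 0 → rt B u w ∈ S) →
      ∀ x, B u x = 0 → B v x = 0 → rt B u x ∈ S := by
    intro v ht hv x hux hvx
    have h3 := h.span2 u v ht x hux hvx
    have h4 : Submodule.span K {w | w ∈ P ∧ B u w = 0 ∧ B v w = 0} ≤ S.comap (rtL B u) :=
      Submodule.span_le.2 fun w hw => hv w hw.1 hw.2.1 hw.2.2
    exact h4 h3
  have h3 := h2 v ht h1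
  -- step 3
  obtain ⟨w, hw, huw, hvw, hc⟩ := h.link2 u v ht
  have hwu : ∀ c : K, w ≠ c • u := fun c hc' => hc c 0 (by rw [zero_smul, add_zero, hc'])
  have htw : TS B P u w := ⟨ht.left, hw, huw, hwu⟩
  have hmw := h1 w hw huw hvw
  have h1' : ∀ z ∈ P, B u z = 0 → B w z = 0 → rt B u z ∈ S := by
    intro z hz huz hwz
    -- the same argument with `w` instead of `v`
    by_cases hcz : ∃ c d : K, z = c • u + d • w
    · obtain ⟨c, d, rfl⟩ := hcz
      rw [rt_add, rt_smul, rt_smul, h.rt_self, smul_zero, zero_add]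
      exact S.smul_mem d hmw
    · push Not at hcz
      have hzu : ∀ c : K, z ≠ c • u := fun c hc' => hcz c 0 (by rw [zero_smul, add_zero, hc'])
      have htz : TS B P u z := ⟨ht.left, hz, huz, hzu⟩
      obtain ⟨y, hy, huy, hzy, hyw⟩ : ∃ y ∈ P, B u y = 0 ∧ B z y = 0 ∧ B y w ≠ 0 := by
        by_contra hcon
        push Not at hcon
        obtain ⟨c, d, hcd⟩ := h.mem_of_orth2 htz (x := w) hcon
        have hd : d ≠ 0 := by
          rintro rfl
          rw [zero_smul, add_zero] at hcd
          exact htw.ind c hcd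
        apply hcz (-(d⁻¹ * c)) d⁻¹
        rw [hcd, smul_add, smul_smul, smul_smul, inv_mul_cancel₀ hd, one_smul, neg_smul, neg_add_cancel_left]
      have hyz : ∀ c : K, y ≠ c • z := by
        rintro c rfl
        apply hyw
        rw [map_smul, LinearMap.smul_apply, h.orth_comm hwz, smul_zero]
      have h2 := hS.br _ ⟨z, y, ⟨hz, hy, hzy, hyz⟩, rfl⟩ _ hmw
      rw [h.bracket (h.orth_comm huz) (h.orth_comm huy) (h.orth_comm hwz)] at h2
      have h3 := S.smul_mem (B y w)⁻¹ h2
      rwa [smul_smul, inv_mul_cancel₀ hyw, one_smul] at h3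
  have h4 := h2 w htw h1'
  intro x hx
  -- `y ∈ P` orthogonal to `u`, `w`, not to `v`
  obtain ⟨y, hy, huy, hwy, hyv⟩ : ∃ y ∈ P, B u y = 0 ∧ B w y = 0 ∧ B y v ≠ 0 := by
    by_contra hcon
    push Not at hcon
    obtain ⟨c, d, hcd⟩ := h.mem_of_orth2 htw (x := v) hcon
    have hd : d ≠ 0 := by
      rintro rfl
      rw [zero_smul, add_zero] at hcd
      exact ht.ind c hcd
    apply hc (-(d⁻¹ * c)) d⁻¹
    rw [hcd, smul_add, smul_smul, smul_smul, inv_mul_cancel₀ hd, one_smul, neg_smul, neg_add_cancel_left]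
  have e1 : x = (x - ((B y v)⁻¹ * B v x) • y) + ((B y v)⁻¹ * B v x) • y := by rw [sub_add_cancel]
  rw [e1, rt_add]
  refine S.add_mem (h3 _ ?_ ?_) (h4 _ ?_ ?_)
  · rw [map_sub, map_smul, hx, huy, smul_zero, sub_zero]
  · rw [map_sub, map_smul, h.symm v y, smul_eq_mul, mul_comm (B y v)⁻¹, mul_assoc, inv_mul_cancel₀ hyv, mul_one,
      sub_self]
  · rw [map_smul, huy, smul_zero]
  · rw [map_smul, hwy, smul_zero]

/-- **a root-closed subspace of `Lam` which is not scalar contains all root elements** -/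
theorem all_of_not_scalar {S : Submodule K (Module.End K V)} (hS : RtClosed B P S) (hSL : S ≤ Lam B)
    (hns : ¬ ∀ X ∈ S, ∃ c : K, X = c • 1) : ∀ u ∈ P, ∀ x, B u x = 0 → rt B u x ∈ S := by
  push Not at hns
  obtain ⟨X, hX, hXs⟩ := hns
  -- some root element
  obtain ⟨u, v, ht, hm⟩ : ∃ u v, TS B P u v ∧ rt B u v ∈ S := by
    by_contra hcon
    push Not at hcon
    obtain ⟨c, hc⟩ := h.scalar (X := X) (by
      rintro _ ⟨u, v, ht, rfl⟩
      rw [h.rt_mul_Lam (hSL hX)]
      by_cases h0 : B u (X v) = 0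
      · rw [h0, zero_smul]
      · exfalso
        apply hcon u v ht
        have h1 := hS.sq _ ⟨u, v, ht, rfl⟩ X hX
        rw [h.rt_mul_Lam (hSL hX)] at h1
        have h2 := S.smul_mem (B u (X v))⁻¹ h1
        rwa [smul_smul, inv_mul_cancel₀ h0, one_smul] at h2)
    exact hXs c hc
  -- neighbours
  have hstep : ∀ u w, TS B P u w → (∀ x, B u x = 0 → rt B u x ∈ S) → ∀ x, B w x = 0 → rt B w x ∈ S := by
    intro u w ht hu
    have h1 := hu w ht.orth
    rw [rt_comm] at h1
    exact h.all_left hS (h.ts_symm ht) h1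
  have h0 := h.all_left hS ht hm
  intro z hz
  obtain ⟨w, hw, huw, hzw, hwu, hwz⟩ := h.link u ht.left z hz
  exact hstep w z (h.ts_symm ⟨hz, hw, hzw, hwz⟩) (hstep u w ⟨ht.left, hw, huw, hwu⟩ h0)

theorem Lam0_le_of_not_scalar {S : Submodule K (Module.End K V)} (hS : RtClosed B P S) (hSL : S ≤ Lam B)
    (hns : ¬ ∀ X ∈ S, ∃ c : K, X = c • 1) : Lam0 B P ≤ S := by
  refine Submodule.span_le.2 ?_
  rintro _ ⟨u, v, ht, rfl⟩
  exact h.all_of_not_scalar hS hSL hns u ht.left v ht.orth

/-- modulo `Lam0`, `rt B x y` is `B x y` times a constant -/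
theorem rt_sub_mem {e f : V} (he : e ∈ P) (hf : f ∈ P) (hef : B e f ≠ 0) (x y : V) :
    rt B x y - ((B e f)⁻¹ * B x y) • rt B e f ∈ Lam0 B P := by
  set N := Lam0 B P with hN
  set H := rt B e f with hH
  have hN0 : ∀ u ∈ P, ∀ x, B u x = 0 → rt B u x ∈ N := fun u hu x hx => h.rt_mem_Lam0 hu hx
  -- propagation
  have hprop : ∀ u ∈ P, ∀ v, B u v ≠ 0 → rt B u v - ((B e f)⁻¹ * B u v) • H ∈ N →
      ∀ x, rt B u x - ((B e f)⁻¹ * B u x) • H ∈ N := by
    intro u hu v huv hm x
    have h1 := hN0 u hu (x - ((B u v)⁻¹ * B u x) • v) (by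
      rw [map_sub, map_smul, smul_eq_mul, mul_comm (B u v)⁻¹, mul_assoc, inv_mul_cancel₀ huv, mul_one, sub_self])
    have h2 := N.add_mem h1 (N.smul_mem ((B u v)⁻¹ * B u x) hm)
    have e1 : x = (x - ((B u v)⁻¹ * B u x) • v) + ((B u v)⁻¹ * B u x) • v := by rw [sub_add_cancel]
    have e2 : rt B u x = rt B u (x - ((B u v)⁻¹ * B u x) • v) + ((B u v)⁻¹ * B u x) • rt B u v := by
      conv_lhs => rw [e1, rt_add, rt_smul]
    have e3 : (B e f)⁻¹ * B u x = ((B u v)⁻¹ * B u x) * ((B e f)⁻¹ * B u v) := by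
      rw [mul_comm (B u v)⁻¹, mul_assoc, mul_left_comm (B u v)⁻¹, inv_mul_cancel₀ huv]
      ring
    rw [e2, add_sub_assoc, e3, mul_smul _ _ H, ← smul_sub]
    exact h2
  have hgood : ∀ u ∈ P, ∀ v ∈ P, B u v ≠ 0 → (∀ x, rt B u x - ((B e f)⁻¹ * B u x) • H ∈ N) →
      ∀ x, rt B v x - ((B e f)⁻¹ * B v x) • H ∈ N := by
    intro u hu v hv huv hg
    refine hprop v hv u (by rwa [h.symm]) ?_
    rw [rt_comm, h.symm v u]
    exact hg v
  have ge : ∀ x, rt B e x - ((B e f)⁻¹ * B e x) • H ∈ N := by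
    refine hprop e he f hef ?_
    rw [inv_mul_cancel₀ hef, one_smul, sub_self]
    exact zero_mem _
  have gf : ∀ x, rt B f x - ((B e f)⁻¹ * B f x) • H ∈ N := hgood e he f hf hef ge
  have hall : ∀ u ∈ P, ∀ x, rt B u x - ((B e f)⁻¹ * B u x) • H ∈ N := by
    intro u hu
    by_cases hue : B e u = 0
    · by_cases hc : ∃ c : K, u = c • e
      · obtain ⟨c, rfl⟩ := hc
        intro x
        have h1 := N.smul_mem c (ge x)
        rw [smul_sub, smul_smul] at h1
        rw [rt_smul_left, map_smul, LinearMap.smul_apply, smul_eq_mul, mul_left_comm]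
        exact h1
      · push Not at hc
        by_cases hfu : B f u = 0
        · -- `e + u`
          have heu := h.add e u ⟨he, hu, hue, hc⟩
          have g1 : ∀ x, rt B (e + u) x - ((B e f)⁻¹ * B (e + u) x) • H ∈ N := by
            refine hgood f hf _ heu ?_ gf
            rw [map_add, hfu, add_zero, h.symm]
            exact hef
          obtain ⟨y, hy, hyu⟩ : ∃ y ∈ P, B y u ≠ 0 := by
            by_contra hcon
            push Not at hcon
            exact h.ne u hu (h.eq_zero_of_orth hcon)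
          have gy : ∀ x, rt B y x - ((B e f)⁻¹ * B y x) • H ∈ N := by
            by_cases hey : B e y = 0
            · refine hgood _ heu y hy ?_ g1
              rw [map_add, LinearMap.add_apply, hey, zero_add, h.symm]
              exact hyu
            · exact hgood e he y hy hey ge
          exact hgood y hy u hu hyu gy
        · exact hgood f hf u hu hfu gf
    · exact hgood e he u hu hue ge
  have h1 : Submodule.span K P ≤ N.comap (rtL B y - ((B e f)⁻¹ • (B y).smulRight H)) := by
    refine Submodule.span_le.2 fun u hu => ?_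
    have h2 := hall u hu y
    rw [rt_comm, h.symm u y, mul_smul] at h2
    exact h2
  rw [h.span] at h1
  have h2 : rt B y x - ((B e f)⁻¹ • (B y x • H)) ∈ N := h1 (Submodule.mem_top (x := x))
  rwa [rt_comm, smul_smul, h.symm y x] at h2

theorem exists_pair : ∃ e ∈ P, ∃ f ∈ P, B e f ≠ 0 := by
  obtain ⟨e, he⟩ := h.nonempty
  obtain ⟨f, hf, hfe⟩ : ∃ f ∈ P, B f e ≠ 0 := by
    by_contra hcon
    push Not at hcon
    exact h.ne e he (h.eq_zero_of_orth hcon)
  exact ⟨e, he, f, hf, by rwa [h.symm]⟩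

/-- `rt B x y ∈ Lam0` for all orthogonal `x`, `y` -/
theorem rt_mem_of_orth {x y : V} (hxy : B x y = 0) : rt B x y ∈ Lam0 B P := by
  obtain ⟨e, he, f, hf, hef⟩ := h.exists_pair
  have h1 := h.rt_sub_mem he hf hef x y
  rwa [hxy, mul_zero, zero_smul, sub_zero] at h1

theorem Lam0_eq : Lam0 B P = Submodule.span K {a | ∃ x y : V, B x y = 0 ∧ a = rt B x y} := by
  apply le_antisymm
  · refine Submodule.span_mono ?_
    rintro _ ⟨u, v, ht, rfl⟩
    exact ⟨u, v, ht.orth, rfl⟩
  · refine Submodule.span_le.2 ?_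
    rintro _ ⟨x, y, hxy, rfl⟩
    exact h.rt_mem_of_orth hxy

/-- `Lam0` has codimension at most one in the span of all `rt x y` -/
theorem rt_mem_sup {e f : V} (he : e ∈ P) (hf : f ∈ P) (hef : B e f ≠ 0) (x y : V) :
    rt B x y ∈ Lam0 B P ⊔ Submodule.span K {rt B e f} := by
  have h1 := h.rt_sub_mem he hf hef x y
  have h2 : ((B e f)⁻¹ * B x y) • rt B e f ∈ Submodule.span K {rt B e f} :=
    Submodule.smul_mem _ _ (Submodule.subset_span rfl)
  rw [← sub_add_cancel (rt B x y) (((B e f)⁻¹ * B x y) • rt B e f)]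
  exact Submodule.add_mem_sup h1 h2

theorem nondegenerate : B.Nondegenerate := by
  constructor
  · intro x hx
    exact h.nd x fun y => by rw [h.symm]; exact hx y
  · intro x hx
    exact h.nd x hx

/-- **the dimension of `Lam0`** -/
theorem finrank_Lam0 [FiniteDimensional K V] :
    Module.finrank K V * (Module.finrank K V - 1) / 2 ≤ Module.finrank K (Lam0 B P) + 1 := by
  classical
  set n := Module.finrank K V with hn
  let b := Module.finBasis K V
  let d := LinearMap.BilinForm.dualBasis B h.nondegenerate b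
  have hd : ∀ i j, B (d i) (b j) = if j = i then 1 else 0 := fun i j =>
    LinearMap.BilinForm.apply_dualBasis_left h.nondegenerate b i j
  -- the family
  let I : Type := (j : Fin n) × Fin j.val
  let c : I → Fin n := fun p => ⟨p.2.val, p.2.isLt.trans p.1.isLt⟩
  have hc : ∀ p : I, (c p).val < p.1.val := fun p => p.2.isLt
  have hinj : ∀ p q : I, p.1 = q.1 → c p = c q → p = q := by
    rintro ⟨j, i⟩ ⟨j', i'⟩ h1 h2
    obtain rfl : j = j' := h1
    have h3 : (c ⟨j, i⟩).val = (c ⟨j, i'⟩).val := congrArg Fin.val h2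
    rw [Fin.ext (show i.val = i'.val from h3)]
  let r : I → Module.End K V := fun p => rt B (b (c p)) (b p.1)
  have hr : ∀ p q : I, B (d (c q)) (r p (d q.1)) = if p = q then 1 else 0 := by
    intro p q
    change B (d (c q)) (rt B (b (c p)) (b p.1) (d q.1)) = _
    rw [rt_apply, map_add, map_smul, map_smul, hd, hd, h.symm (b p.1), h.symm (b (c p)), hd, hd, smul_eq_mul, smul_eq_mul]
    by_cases hpq : p = q
    · subst hpq
      have h1 : ¬ c p = p.1 := fun h1 => by
        have := hc p
        rw [h1] at this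
        exact lt_irrefl _ this
      rw [if_pos rfl, if_pos rfl, if_neg h1, if_pos rfl]
      ring
    · rw [if_neg hpq]
      have h1 : (if p.1 = q.1 then (1 : K) else 0) * (if c p = c q then 1 else 0) = 0 := by
        by_cases h1 : p.1 = q.1
        · by_cases h2 : c p = c q
          · exact absurd (hinj p q h1 h2) hpq
          · rw [if_neg h2, mul_zero]
        · rw [if_neg h1, zero_mul]
      have h2 : (if c p = q.1 then (1 : K) else 0) * (if p.1 = c q then 1 else 0) = 0 := by
        by_cases h1 : c p = q.1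
        · by_cases h2 : p.1 = c q
          · exfalso
            have h3 := hc p
            have h4 := hc q
            rw [h1, h2] at h3
            exact lt_asymm h3 h4
          · rw [if_neg h2, mul_zero]
        · rw [if_neg h1, zero_mul]
      rw [h1, h2, add_zero]
  have hli : LinearIndependent K r := by
    rw [Fintype.linearIndependent_iff]
    intro g hg q
    have h1 := congrArg (fun X : Module.End K V => B (d (c q)) (X (d q.1))) hg
    simp only [LinearMap.sum_apply, LinearMap.smul_apply, map_sum, map_smul, hr, LinearMap.zero_apply, map_zero,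
      smul_eq_mul, mul_ite, mul_one, mul_zero] at h1
    rw [Finset.sum_eq_single q (fun x _ hx => if_neg hx) (fun hx => absurd (Finset.mem_univ q) hx), if_pos rfl] at h1
    exact h1
  have hcard : Fintype.card I = n * (n - 1) / 2 := by
    rw [Fintype.card_sigma]
    simp only [Fintype.card_fin]
    rw [Fin.sum_univ_eq_sum_range (fun i => i) n, Finset.sum_range_id]
  obtain ⟨e, he, f, hf, hef⟩ := h.exists_pair
  have h1 : Submodule.span K (Set.range r) ≤ Lam0 B P ⊔ Submodule.span K {rt B e f} := by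
    refine Submodule.span_le.2 ?_
    rintro _ ⟨p, rfl⟩
    exact h.rt_mem_sup he hf hef _ _
  have h2 := Submodule.finrank_mono h1
  rw [finrank_span_eq_card hli, hcard] at h2
  refine h2.trans ((Submodule.finrank_add_le_finrank_add_finrank _ _).trans ?_)
  refine Nat.add_le_add_left ?_ _
  have h3 := finrank_span_le_card (R := K) ({rt B e f} : Set (Module.End K V))
  simpa using h3

end Pol

end Cfsg.Agent.H435.BR
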