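import Cfsg.Agent.H168.BR.RootMem

/-!
# HUB BR: subquotient representations (helper435)

`S1`, `S2` invariant subspaces for `τ : G →* End U`.
* `subq τ S1 S2 h1 h2` : the representation on `S1 / (S1 ∩ S2)`; `subq_mk`;
* `irr_subq` : irreducible for all `M` with `Dns τ M`, if there is nothing between;
* `subq_eq_one`; `polyDeg_ad_subq` : for `τ = ad ρ`, degree two on the root groups.
-/

set_option autoImplicit false
set_option linter.unusedSectionVars false

namespace Cfsg.Agent.H435.BR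

open Module Cfsg.Agent.H883.BR

section gen

variable {K : Type*} [Field K] {U : Type*} [AddCommGroup U] [Module K U] {G : Type*} [Group G]
  (τ : G →* Module.End K U) (S1 S2 : Submodule K U)

/-- the underlying space of the subquotient -/
abbrev SubQ : Type _ := ↥S1 ⧸ S2.comap S1.subtype

variable {S1 S2} in
/-- the map on the subquotient -/
noncomputable def mq (f : Module.End K U) (h1 : ∀ X ∈ S1, f X ∈ S1) (h2 : ∀ X ∈ S2, f X ∈ S2) :
    Module.End K (SubQ S1 S2) :=
  Submodule.mapQ (S2.comap S1.subtype) (S2.comap S1.subtype) (f.restrict h1)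
    ((Submodule.map_le_iff_le_comap).1 (by
      rintro _ ⟨X, hX, rfl⟩
      exact h2 X.1 hX))

variable {S1 S2} in
theorem mq_mk {f : Module.End K U} (h1 : ∀ X ∈ S1, f X ∈ S1) (h2 : ∀ X ∈ S2, f X ∈ S2) (X : S1) :
    mq f h1 h2 (Submodule.Quotient.mk X) = Submodule.Quotient.mk ⟨f X, h1 X X.2⟩ := rfl

theorem subQ_surj (w : SubQ S1 S2) : ∃ X : S1, (Submodule.Quotient.mk X : SubQ S1 S2) = w :=
  Submodule.Quotient.mk_surjective _ w

theorem subQ_mk_eq_zero (X : S1) : (Submodule.Quotient.mk X : SubQ S1 S2) = 0 ↔ (X : U) ∈ S2 := by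
  rw [Submodule.Quotient.mk_eq_zero]
  rfl

theorem subQ_mk_eq (X Y : S1) : (Submodule.Quotient.mk X : SubQ S1 S2) = Submodule.Quotient.mk Y ↔ (X : U) - Y ∈ S2 := by
  rw [Submodule.Quotient.eq]
  rfl

variable (h1 : Inv τ ⊤ S1) (h2 : Inv τ ⊤ S2)

/-- the representation on `S1 / (S1 ∩ S2)` -/
noncomputable def subq : G →* Module.End K (SubQ S1 S2) where
  toFun g := mq (τ g) (h1 g trivial) (h2 g trivial)
  map_one' := by
    refine LinearMap.ext fun X => ?_
    obtain ⟨X, rfl⟩ := subQ_surj S1 S2 X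
    rw [mq_mk, Module.End.one_apply]
    refine congrArg _ (Subtype.ext ?_)
    change τ 1 X.1 = X.1
    rw [map_one]
    rfl
  map_mul' g h := by
    refine LinearMap.ext fun X => ?_
    obtain ⟨X, rfl⟩ := subQ_surj S1 S2 X
    rw [Module.End.mul_apply, mq_mk, mq_mk, mq_mk]
    refine congrArg _ (Subtype.ext ?_)
    change τ (g * h) X.1 = τ g (τ h X.1)
    rw [map_mul]
    rfl

variable {τ S1 S2}

theorem subq_mk (g : G) (X : S1) : subq τ S1 S2 h1 h2 g (Submodule.Quotient.mk X) =
    Submodule.Quotient.mk ⟨τ g X, h1 g trivial X X.2⟩ := rfl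

/-- **irreducibility for all dense subgroups** -/
theorem irr_subq (hne : ¬ S1 ≤ S2) (hmin : ∀ T : Submodule K U, Inv τ ⊤ T → T ≤ S1 → T ≤ S2 ∨ S1 ≤ T) {M : Subgroup G}
    (hM : Dns τ M) : Irr (V := SubQ S1 S2) (subq τ S1 S2 h1 h2) M := by
  constructor
  · obtain ⟨X, hX, hX2⟩ := SetLike.not_le_iff_exists.1 hne
    exact ⟨⟨Submodule.Quotient.mk ⟨X, hX⟩, 0, fun h => hX2 ((subQ_mk_eq_zero _ _ _).1 h)⟩⟩
  · intro T hT
    -- the preimage of `T`
    let T' : Submodule K U := (T.comap (S2.comap S1.subtype).mkQ).map S1.subtype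
    have hT' : ∀ X : S1, (Submodule.Quotient.mk X : SubQ S1 S2) ∈ T ↔ (X : U) ∈ T' := by
      intro X
      constructor
      · intro h
        exact ⟨X, h, rfl⟩
      · rintro ⟨Y, hY, hXY⟩
        have h3 : Y = X := Subtype.ext hXY
        rw [← h3]
        exact hY
    have hinv : Inv τ ⊤ T' := by
      apply hM
      rintro m hm _ ⟨X, hX, rfl⟩
      exact (hT' ⟨τ m X, h1 m trivial X X.2⟩).1 (hT m hm _ hX)
    rcases hmin T' hinv (Submodule.map_subtype_le _ _) with h | h
    · left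
      rw [eq_bot_iff]
      intro w hw
      obtain ⟨X, rfl⟩ := subQ_surj _ _ w
      rw [Submodule.mem_bot, subQ_mk_eq_zero]
      exact h ((hT' X).1 hw)
    · right
      rw [eq_top_iff]
      intro w _
      obtain ⟨X, rfl⟩ := subQ_surj _ _ w
      exact (hT' X).2 (h X.2)

theorem subq_eq_one {z : G} (hz : τ z = 1) : subq τ S1 S2 h1 h2 z = 1 := by
  refine LinearMap.ext fun X => ?_
  obtain ⟨X, rfl⟩ := subQ_surj _ _ X
  rw [subq_mk]
  refine congrArg _ (Subtype.ext ?_)
  change τ z X.1 = X.1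
  rw [hz]
  rfl

/-- polynomial families of endomorphisms whose coefficients preserve `S1`, `S2` -/
theorem polyDeg_subq {F : Subfield K} {I : Type*} {x : I → F → G} {e : ℕ}
    (hc : ∀ i, ∃ c : ℕ → Module.End K U, (∀ t : F, τ (x i t) = ∑ j ∈ Finset.range (e + 1), (t : K) ^ j • c j) ∧
      ∀ j, (∀ X ∈ S1, c j X ∈ S1) ∧ ∀ X ∈ S2, c j X ∈ S2) : PolyDeg (V := SubQ S1 S2) (subq τ S1 S2 h1 h2) F x e := by
  intro i
  obtain ⟨c, hc, hS⟩ := hc i
  refine ⟨fun j => mq (c j) (hS j).1 (hS j).2, fun t => ?_⟩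
  refine LinearMap.ext fun X => ?_
  obtain ⟨X, rfl⟩ := subQ_surj _ _ X
  rw [subq_mk, LinearMap.sum_apply]
  have h3 : ∀ j ∈ Finset.range (e + 1), ((t : K) ^ j • mq (c j) (hS j).1 (hS j).2) (Submodule.Quotient.mk X) =
      (S2.comap S1.subtype).mkQ ((t : K) ^ j • (⟨c j X, (hS j).1 X X.2⟩ : S1)) := by
    intro j _
    rw [LinearMap.smul_apply, mq_mk, map_smul, Submodule.mkQ_apply]
  rw [Finset.sum_congr rfl h3, ← map_sum, Submodule.mkQ_apply]
  refine congrArg _ (Subtype.ext ?_)
  rw [AddSubmonoidClass.coe_finsetSum]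
  change τ (x i t) X.1 = ∑ j ∈ Finset.range (e + 1), (t : K) ^ j • c j X.1
  rw [hc, LinearMap.sum_apply]
  rfl

end gen

section ad

variable {K : Type*} [Field K] {V : Type*} [AddCommGroup V] [Module K V] {G : Type*} [Group G]
  {ρ : G →* Module.End K V}

/-- central elements act trivially by conjugation -/
theorem ad_eq_one {z : G} {c : K} (hz : ρ z = c • 1) : ad ρ z = 1 := by
  refine LinearMap.ext fun X => ?_
  rw [ad_apply, hz]
  have h1 : ρ z * ρ z⁻¹ = 1 := by rw [← map_mul, mul_inv_cancel, map_one]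
  rw [hz, smul_mul_assoc, one_mul] at h1
  rw [smul_mul_assoc, one_mul, smul_mul_assoc, ← mul_smul_comm, h1, mul_one]
  rfl

/-- `X ↦ a X - X a` -/
def adL (a : Module.End K V) : Module.End K (Module.End K V) where
  toFun X := a * X - X * a
  map_add' X Y := by
    rw [mul_add, add_mul]
    abel
  map_smul' c X := by rw [mul_smul_comm, smul_mul_assoc, smul_sub, RingHom.id_apply]

/-- `X ↦ - a X a` -/
def sqL (a : Module.End K V) : Module.End K (Module.End K V) where
  toFun X := -(a * X * a)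
  map_add' X Y := by
    rw [mul_add, add_mul]
    abel
  map_smul' c X := by rw [mul_smul_comm, smul_mul_assoc, smul_neg, RingHom.id_apply]

theorem adL_apply (a X : Module.End K V) : adL a X = a * X - X * a := rfl

theorem sqL_apply (a X : Module.End K V) : sqL a X = -(a * X * a) := rfl

/-- `ad ρ` has degree two on the root groups, with coefficients which preserve all invariant subspaces -/
theorem polyDeg_ad_subq {F : Subfield K} [Finite F] (h3 : 3 ≤ Nat.card F) {I : Type*} {x : I → F → G}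
    {a : I → Module.End K V} (ha : ∀ i, a i * a i = 0) (hx : ∀ i t, ρ (x i t) = 1 + (t : K) • a i)
    {S1 S2 : Submodule K (Module.End K V)} (h1 : Inv (ad ρ) ⊤ S1) (h2 : Inv (ad ρ) ⊤ S2) :
    PolyDeg (V := SubQ S1 S2) (subq (ad ρ) S1 S2 h1 h2) F x 2 := by
  refine polyDeg_subq h1 h2 fun i => ?_
  have hR : Rt ρ F ⊤ (a i) := ⟨ha i, fun t ht => ⟨x i ⟨t, ht⟩, trivial, hx i ⟨t, ht⟩⟩⟩
  refine ⟨fun j => if j = 0 then 1 else if j = 1 then adL (a i) else sqL (a i), fun t => ?_, fun j => ?_⟩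
  · refine LinearMap.ext fun X => ?_
    rw [Finset.sum_range_succ, Finset.sum_range_succ, Finset.sum_range_one, pow_zero, pow_one, one_smul,
      H168.BR.ad_root (ha i) (hx i t)]
    change _ = X + (t : K) • (a i * X - X * a i) + (t : K) ^ 2 • -(a i * X * a i)
    rw [smul_neg, sub_eq_add_neg, pow_two]
  · have key : ∀ S : Submodule K (Module.End K V), Inv (ad ρ) ⊤ S → ∀ X ∈ S,
        (if j = 0 then 1 else if j = 1 then adL (a i) else sqL (a i) : Module.End K (Module.End K V)) X ∈ S := by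
      intro S hS X hX
      have h4 := H168.BR.root_mem h3 hS hR hX
      split_ifs
      · exact hX
      · exact h4.1
      · exact S.neg_mem h4.2
    exact ⟨key S1 h1, key S2 h2⟩

end ad

end Cfsg.Agent.H435.BR
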